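import Mathlib
import Cfsg.Agent.Grp.Cores
import Cfsg.Agent.Transfer.PCompl

/-! Rank one groups `X ⊴ G` with a cyclic torus: a `p`-element centralised by `N_G(S)` centralises `X`. -/

set_option autoImplicit false
set_option linter.unusedSectionVars false

namespace Cfsg.Agent.IsR1

open Subgroup

variable {G : Type*} [Group G] {p : ℕ}

abbrev NN (D : Subgroup G) : Subgroup G := normalizer (D : Set G)

/-- a split `BN`-pair of rank one in `X` with torus `⟨d⟩`, and `h ∈ ⟨d⟩` of order dividing `p - 1` acting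
fixed point freely on `U` -/
structure R1 (p : ℕ) (X U : Subgroup G) (w d h : G) : Prop where
  UX : U ≤ X
  wX : w ∈ X
  dX : d ∈ X
  pU : IsPGroup p U
  dU : d ∈ NN U
  cop : ∃ m, Nat.Coprime m p ∧ d ^ m = 1
  cover : ∀ g ∈ X, (∃ u ∈ U, ∃ t ∈ zpowers d, g = u * t) ∨
    ∃ u ∈ U, ∃ u' ∈ U, ∃ t ∈ zpowers d, g = u * w * (u' * t)
  hd : h ∈ zpowers d
  hw : w⁻¹ * h * w ∈ zpowers d
  hp : h ^ (p - 1) = 1
  fpf : ∀ u ∈ U, h * u = u * h → u = 1
  ti : ∀ u ∈ U, w⁻¹ * u * w ∈ U → u = 1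
  gen : ∀ Y : Subgroup G, (∀ x ∈ X, ∀ u ∈ U, x * u * x⁻¹ ∈ Y) → X ≤ Y

theorem cj {U : Subgroup G} {n u : G} (hn : n ∈ NN U) (hu : u ∈ U) : n * u * n⁻¹ ∈ U :=
  (mem_normalizer_iff.1 hn u).1 hu

theorem fix_of_small [Finite G] [hp : Fact p.Prime] {A : Subgroup G} (hA : IsPGroup p A) {a D : G}
    (h1 : ∀ t ∈ A, t * a * t⁻¹ ∈ zpowers D) (h2 : a ^ (p - 1) = 1) {t : G} (ht : t ∈ A) :
    t * a * t⁻¹ = a := by
  classical
  have := Fintype.ofFinite (zpowers D)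
  obtain ⟨n, hn⟩ := (hA.map MulAut.conj).card_orbit a
  have l : Nat.card (MulAction.orbit (A.map MulAut.conj) a) ≤ p - 1 := by
    refine le_trans ?_ (IsCyclic.card_pow_eq_one_le (α := zpowers D) (Nat.sub_pos_of_lt hp.1.one_lt))
    rw [← Fintype.card_coe, ← Nat.card_eq_fintype_card]
    have k : ∀ y ∈ MulAction.orbit (A.map MulAut.conj) a, y ∈ zpowers D ∧ y ^ (p - 1) = 1 := by
      rintro _ ⟨⟨_, s, hs, rfl⟩, rfl⟩
      exact ⟨h1 s hs, (conj_pow (a := s) (b := a)).trans (by rw [h2, mul_one, mul_inv_cancel])⟩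
    exact Nat.card_le_card_of_injective (fun y => ⟨⟨y.1, (k _ y.2).1⟩,
      Finset.mem_filter.2 ⟨Finset.mem_univ _, Subtype.ext (k _ y.2).2⟩⟩) fun y y' e =>
        Subtype.ext (congrArg (fun v => v.1.1) e)
  rcases n with _ | n
  · have := (Nat.card_eq_one_iff_unique.1 hn).1
    exact congrArg Subtype.val (this.elim ⟨_, ⟨⟨_, t, ht, rfl⟩, rfl⟩⟩ ⟨a, MulAction.mem_orbit_self a⟩)
  · have : p ≤ p ^ (n + 1) := Nat.le_self_pow n.succ_ne_zero p
    have := hp.1.pos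
    omega

namespace R1

variable {X U : Subgroup G} {w d h : G} (R : R1 p X U w d h)
include R

theorem tN {t : G} (ht : t ∈ zpowers d) : t ∈ NN U := zpowers_le.2 R.dU ht

theorem norm {c : G} (hc : c ∈ X) (hn : c ∈ NN U) : ∃ u ∈ U, ∃ t ∈ zpowers d, c = u * t := by
  refine (R.cover c hc).elim id ?_
  rintro ⟨u, hu, u', hu', t, ht, rfl⟩
  have : w⁻¹ ∈ NN U := inv_mem ((mul_mem_cancel_left (le_normalizer hu)).1
    ((mul_mem_cancel_right (mul_mem (le_normalizer hu') (R.tN ht))).1 hn))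
  refine ⟨1, one_mem _, 1, one_mem _, (mem_bot.1 (R.gen ⊥ (fun x _ v hv => ?_) hc)).trans (mul_one 1).symm⟩
  rw [R.ti v hv (by simpa using cj this hv), mul_one, mul_inv_cancel]
  exact one_mem _

theorem memU {c : G} (hc : c ∈ X) (hn : c ∈ NN U) {k : ℕ} (hk : c ^ p ^ k = 1) : c ∈ U := by
  obtain ⟨u, hu, t, ht, e⟩ := R.norm hc hn
  obtain ⟨m, h1, h2⟩ := R.cop
  let π := QuotientGroup.mk' (U.subgroupOf (NN U))
  have e1 : π ⟨c, hn⟩ = π ⟨t, R.tN ht⟩ := by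
    rw [show (⟨c, hn⟩ : NN U) = ⟨u, le_normalizer hu⟩ * ⟨t, R.tN ht⟩ from Subtype.ext e, map_mul,
      show π ⟨u, le_normalizer hu⟩ = 1 from (QuotientGroup.eq_one_iff _).2 hu, one_mul]
  have e2 : π ⟨c, hn⟩ ^ m = 1 := by
    obtain ⟨i, rfl⟩ := ht
    rw [e1, ← map_pow, show (⟨d ^ i, _⟩ : NN U) ^ m = 1 from Subtype.ext (by
      change (d ^ i) ^ m = 1
      rw [← zpow_natCast, zpow_comm, zpow_natCast, h2, one_zpow]), map_one]
  have e3 : π ⟨c, hn⟩ ^ p ^ k = 1 := by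
    rw [← map_pow, show (⟨c, hn⟩ : NN U) ^ p ^ k = 1 from Subtype.ext hk, map_one]
  have := pow_gcd_eq_one.2 ⟨e2, e3⟩
  rw [(h1.pow_right k).gcd_eq_one, pow_one] at this
  exact (QuotientGroup.eq_one_iff (N := U.subgroupOf (NN U)) ⟨c, hn⟩).1 this

theorem map [Finite G] {G' : Type*} [Group G'] [Finite G'] (π : G →* G')
    (hπ : ∀ c ∈ X, π c = 1 → ∀ x ∈ X, x * c = c * x) :
    R1 p (X.map π) (U.map π) (π w) (π d) (π h) := by
  have hX : h ∈ X := zpowers_le.2 R.dX R.hd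
  have z : ∀ t ∈ zpowers d, π t ∈ zpowers (π d) := fun t ⟨i, e⟩ => ⟨i, by rw [← e]; exact (map_zpow π d i).symm⟩
  refine ⟨map_mono R.UX, ⟨w, R.wX, rfl⟩, ⟨d, R.dX, rfl⟩, R.pU.map π, le_normalizer_map π ⟨d, R.dU, rfl⟩,
    R.cop.imp fun m hm => ⟨hm.1, by rw [← map_pow, hm.2, map_one]⟩, ?_, z h R.hd,
    by simpa using z _ R.hw, by rw [← map_pow, R.hp, map_one], ?_, ?_, fun Y hY => ?_⟩
  · rintro _ ⟨g, hg, rfl⟩
    rcases R.cover g hg with ⟨u, hu, t, ht, rfl⟩ | ⟨u, hu, u', hu', t, ht, rfl⟩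
    · exact Or.inl ⟨_, ⟨u, hu, rfl⟩, _, z t ht, map_mul _ _ _⟩
    · exact Or.inr ⟨_, ⟨u, hu, rfl⟩, _, ⟨u', hu', rfl⟩, _, z t ht, by simp only [map_mul]⟩
  · rintro _ ⟨u, hu, rfl⟩ e
    have m : h * u * h⁻¹ * u⁻¹ ∈ U := mul_mem (cj (R.tN R.hd) hu) (inv_mem hu)
    have := R.fpf _ m (hπ _ (R.UX m) (by simp [e]) h hX)
    rw [R.fpf u hu (by rwa [mul_inv_eq_one, mul_inv_eq_iff_eq_mul] at this), map_one]
  · rintro _ ⟨u, hu, rfl⟩ ⟨u', hu', e⟩
    have m : u'⁻¹ * (w⁻¹ * u * w) ∈ X :=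
      mul_mem (inv_mem (R.UX hu')) (mul_mem (mul_mem (inv_mem R.wX) (R.UX hu)) R.wX)
    have c := hπ _ m (by simp only [map_mul, map_inv, e, inv_mul_cancel])
    obtain ⟨k, hk⟩ := R.pU ⟨u, hu⟩
    obtain ⟨l, hl⟩ := R.pU ⟨u', hu'⟩
    have k1 : u ^ p ^ k = 1 := congrArg Subtype.val hk
    have l1 : u' ^ p ^ l = 1 := congrArg Subtype.val hl
    have cm : Commute u' (u'⁻¹ * (w⁻¹ * u * w)) := c u' (R.UX hu')
    have e1 := cm.mul_pow (p ^ (k + l))
    rw [mul_inv_cancel_left, show w⁻¹ * u * w = w⁻¹ * u * w⁻¹⁻¹ by rw [inv_inv], conj_pow, pow_add, pow_mul, k1,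
      one_pow, mul_comm (p ^ k), pow_mul u', l1, one_pow, mul_comm (p ^ l), ← pow_add, inv_inv, mul_one, one_mul,
      inv_mul_cancel] at e1
    have := R.memU m (mem_normalizer_fintype fun v hv => by
      rw [← c v (R.UX hv), mul_inv_cancel_right]; exact hv) e1.symm
    rw [R.ti u hu ((mul_mem_cancel_left (inv_mem hu')).1 this), map_one]
  · refine map_le_iff_le_comap.2 (R.gen _ fun x hx u hu => ?_)
    simpa using hY _ ⟨x, hx, rfl⟩ _ ⟨u, hu, rfl⟩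

variable [Finite G] [hp : Fact p.Prime] [hX : X.Normal] {T : Subgroup G} (hT : IsPGroup p T) (hU : U ≤ T)
include hT hU

theorem inf_le : T ⊓ X ≤ U := by
  have := (hT.to_le (inf_le_left : T ⊓ X ≤ T)).isNilpotent
  have le : U ≤ T ⊓ X := le_inf hU R.UX
  refine subgroupOf_eq_top.1 (normalizerCondition_iff_only_full_group_self_normalizing.1
    Group.normalizerCondition_of_isNilpotent _ (le_antisymm (fun c hc => ?_) le_normalizer))
  rw [← subgroupOf_normalizer_eq le] at hc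
  obtain ⟨k, hk⟩ := hT ⟨c, c.2.1⟩
  exact R.memU c.2.2 hc (congrArg Subtype.val hk)

theorem TN : T ≤ NN U := fun s hs => mem_normalizer_fintype fun u hu => R.inf_le hT hU
  (mem_inf.2 ⟨mul_mem (mul_mem hs (hU hu)) (inv_mem hs), hX.conj_mem _ (R.UX hu) s⟩)

theorem hN : h ∈ NN T := by
  let π := QuotientGroup.mk' (U.subgroupOf (NN U))
  have hh := R.tN R.hd
  refine inv_mem_iff.1 (mem_normalizer_fintype fun s hs => ?_)
  have := fix_of_small (hT.comap_subtype.map π) (a := π ⟨h, hh⟩) (D := π ⟨d, R.dU⟩) ?_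
    (by rw [← map_pow, show (⟨h, hh⟩ : NN U) ^ (p - 1) = 1 from Subtype.ext R.hp, map_one])
    (t := π ⟨s, R.TN hT hU hs⟩) ⟨_, hs, rfl⟩
  · rw [← map_mul, ← map_inv, ← map_mul, QuotientGroup.mk'_apply, QuotientGroup.mk'_apply, QuotientGroup.eq] at this
    have m : (s * h * s⁻¹)⁻¹ * h ∈ T := hU this
    have := inv_mem (mul_mem (inv_mem (show s ∈ T from hs)) m)
    rwa [show (s⁻¹ * ((s * h * s⁻¹)⁻¹ * h))⁻¹ = h⁻¹ * s * h⁻¹⁻¹ by group] at this
  · rintro _ ⟨t, ht, rfl⟩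
    obtain ⟨u, hu, _, ⟨i, rfl⟩, e⟩ := R.norm (hX.conj_mem _ (zpowers_le.2 R.dX R.hd) t)
      (mul_mem (mul_mem t.2 hh) (inv_mem t.2))
    rw [← map_mul, ← map_inv, ← map_mul, show t * ⟨h, hh⟩ * t⁻¹ = ⟨u, le_normalizer hu⟩ * ⟨d, R.dU⟩ ^ i from
      Subtype.ext e, map_mul, show π ⟨u, le_normalizer hu⟩ = 1 from (QuotientGroup.eq_one_iff _).2 hu, one_mul,
      map_zpow]
    exact zpow_mem_zpowers _ _

theorem cent {z : G} (hz : z ∈ T) (hc : ∀ n ∈ NN T, n * z = z * n) : X ≤ centralizer {z} := by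
  have zN := R.TN hT hU hz
  have zh := hc h (R.hN hT hU)
  have zu : ∀ u ∈ U, u * z = z * u := fun u hu => hc u (le_normalizer (hU hu))
  have pw : ∀ {c y : G}, c ∈ U → ∃ k, (y * c * y⁻¹) ^ p ^ k = 1 := fun {c y} m => by
    obtain ⟨k, hk⟩ := R.pU ⟨c, m⟩
    exact ⟨k, by rw [conj_pow, show c ^ p ^ k = 1 from congrArg Subtype.val hk, mul_one, mul_inv_cancel]⟩
  have K : w⁻¹ * z * w ∈ NN U := by
    rcases R.cover _ (hX.conj_mem _ R.wX z) with ⟨u, hu, t, ht, e⟩ | ⟨u, hu, u', hu', t, ht, e⟩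
    · have : w ∈ NN U := (mul_mem_cancel_left zN).1 ((mul_mem_cancel_right (inv_mem zN)).1
        (e ▸ mul_mem (le_normalizer hu) (R.tN ht)))
      exact mul_mem (mul_mem (inv_mem this) zN) this
    have y : w⁻¹ * (u⁻¹ * z) * w ∈ NN U := by
      rw [show w⁻¹ * (u⁻¹ * z) * w = w⁻¹ * u⁻¹ * (z * w * z⁻¹) * z by group, e,
        show w⁻¹ * u⁻¹ * (u * w * (u' * t)) * z = u' * t * z by group]
      exact mul_mem (mul_mem (le_normalizer hu') (R.tN ht)) zN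
    have m : h * u⁻¹ * h⁻¹ * u ∈ U := mul_mem (cj (R.tN R.hd) (inv_mem hu)) hu
    have k := R.tN R.hw
    have n := mul_mem (mul_mem (mul_mem k y) (inv_mem k)) (inv_mem y)
    rw [show w⁻¹ * h * w * (w⁻¹ * (u⁻¹ * z) * w) * (w⁻¹ * h * w)⁻¹ * (w⁻¹ * (u⁻¹ * z) * w)⁻¹ =
      w⁻¹ * (h * u⁻¹ * h⁻¹ * (h * z) * h⁻¹ * z⁻¹ * u) * w by group, zh,
      show h * u⁻¹ * h⁻¹ * (z * h) * h⁻¹ * z⁻¹ * u = h * u⁻¹ * h⁻¹ * u by group] at n
    obtain ⟨j, hj⟩ := pw (y := w⁻¹) m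
    rw [inv_inv] at hj
    have := R.ti _ m (R.memU (mul_mem (mul_mem (inv_mem R.wX) (R.UX m)) R.wX) n hj)
    rwa [R.fpf _ (inv_mem hu) (by
      rwa [mul_eq_one_iff_eq_inv, mul_inv_eq_iff_eq_mul] at this), one_mul] at y
  have al : ∀ x ∈ X, x⁻¹ * z * x ∈ NN U := fun x hx => by
    rcases R.cover x hx with ⟨u, hu, t, ht, e⟩ | ⟨u, hu, u', hu', t, ht, e⟩
    · have : x ∈ NN U := e ▸ mul_mem (le_normalizer hu) (R.tN ht)
      exact mul_mem (mul_mem (inv_mem this) zN) this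
    have b := mul_mem (le_normalizer hu') (R.tN ht)
    rw [e, show (u * w * (u' * t))⁻¹ * z * (u * w * (u' * t)) =
      (u' * t)⁻¹ * (w⁻¹ * (u⁻¹ * (z * u)) * w) * (u' * t) by group, ← zu u hu, inv_mul_cancel_left]
    exact mul_mem (mul_mem (inv_mem b) K) b
  refine R.gen _ fun x hx u hu => mem_centralizer_singleton_iff.2 ?_
  have vX : x * u * x⁻¹ ∈ X := hX.conj_mem _ (R.UX hu) x
  generalize ev : x * u * x⁻¹ = v at vX
  have cX : z * v * z⁻¹ * v⁻¹ ∈ X := mul_mem (hX.conj_mem _ vX z) (inv_mem vX)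
  have m : ∀ y ∈ X, y⁻¹ * (z * v * z⁻¹ * v⁻¹) * y ∈ U := fun y hy => by
    obtain ⟨k, hk⟩ := pw (y := y⁻¹ * x) (mul_mem (cj (al x hx) hu) (inv_mem hu))
    refine R.memU (mul_mem (mul_mem (inv_mem hy) cX) hy) ?_ (k := k) (by rw [← hk, ← ev]; congr 1; group)
    convert mul_mem (al y hy) (inv_mem (al _ (mul_mem (inv_mem vX) hy))) using 1
    group
  have := R.ti _ (by simpa using m 1 (one_mem _)) (m w R.wX)
  rw [mul_inv_eq_one, mul_inv_eq_iff_eq_mul] at this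
  exact this.symm

end R1

/-- the main result -/
theorem mem_pCore [Finite G] [hp : Fact p.Prime] {U : Subgroup G} {w d h : G}
    (R : R1 p (pResidual p G) U w d h) (S : Sylow p G) {z : G} (hz : z ∈ (S : Subgroup G))
    (hc : ∀ n ∈ NN (S : Subgroup G), n * z = z * n) : z ∈ pCore p G := by
  have hX := Transfer.pResidual_normal p G
  obtain ⟨T, hT⟩ := R.pU.exists_le_sylow
  obtain ⟨g, rfl⟩ := MulAction.exists_smul_eq G T S
  have R' := R.map (MulAut.conj g).toMonoidHom fun c _ e x _ => by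
    rw [(MulEquiv.map_eq_one_iff _).1 e, mul_one, one_mul]
  have e : (pResidual p G).map (MulAut.conj g).toMonoidHom = pResidual p G :=
    characteristic_iff_map_eq.1 inferInstance _
  rw [e] at R'
  have c := R'.cent (g • T).2 (map_mono hT) hz hc
  have top : pResidual p G ⊔ (g • T : Sylow p G) = ⊤ := by
    obtain ⟨k, hk⟩ := IsPGroup.iff_card.1 (Transfer.isPGroup_quotient_pResidual (p := p) (G := G))
    obtain ⟨j, -, hj⟩ := (Nat.dvd_prime_pow hp.1).1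
      ((index_dvd_of_le (le_sup_left : _ ≤ pResidual p G ⊔ (g • T : Sylow p G))).trans hk.dvd)
    rcases j with _ | j
    · exact index_eq_one.1 hj
    · exact absurd ((hj ▸ dvd_pow_self p j.succ_ne_zero).trans (index_dvd_of_le le_sup_right))
        (g • T).not_dvd_index
  refine Grp.le_pCore (N := (g • T : Sylow p G) ⊓ centralizer (pResidual p G)) (normalizer_eq_top_iff.1
    (top_le_iff.1 (top ▸ sup_le (fun x hx => mem_normalizer_fintype fun s hs => ?_)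
      fun x hx => mem_normalizer_fintype fun s hs => ?_))) ((g • T).2.to_le inf_le_left)
    ⟨hz, fun x hx => mem_centralizer_singleton_iff.1 (c hx)⟩
  · rwa [hs.2 x hx, mul_inv_cancel_right]
  · exact mem_inf.2 ⟨mul_mem (mul_mem hx hs.1) (inv_mem hx),
      (normal_centralizer (H := pResidual p G)).conj_mem _ hs.2 x⟩

end Cfsg.Agent.IsR1
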