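import Mathlib
import Cfsg.Agent.IsR1.Abs
import Cfsg.Agent.RootSub.SL2
import Cfsg.Agent.KSG.PresU3b

/-! `SL₂(q)` and `SU₃(q)`, `p ≥ 5`, are rank one groups in the sense of `R1`. -/

set_option autoImplicit false
set_option linter.unusedSectionVars false

namespace Cfsg.Agent.IsR1

open Subgroup Cfsg Matrix Cfsg.Agent.RootSub Cfsg.Agent.Class.U Cfsg.Agent.KSG.U3
open scoped MatrixGroups

variable {F : Type*} [Field F] [Finite F] {p : ℕ} [hp : Fact p.Prime] [CharP F p]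

theorem small_ne (h5 : 5 ≤ p) {k : ℕ} (h0 : 0 < k) (h4 : k < 5) : (k : F) ≠ 0 := fun e =>
  absurd (Nat.le_of_dvd h0 ((CharP.cast_eq_zero_iff F p k).1 e)) (by omega)

theorem two_pow_pred (h5 : 5 ≤ p) : (2 : F) ^ (p - 1) = 1 := by
  have h2 : (2 : F) ≠ 0 := by simpa using small_ne (F := F) h5 two_pos (by norm_num)
  have := add_pow_char (1 : F) 1 p
  rw [one_pow, one_add_one_eq_two] at this
  exact mul_right_cancel₀ h2 (by rw [← pow_succ, Nat.sub_add_cancel hp.1.pos, this, one_mul])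

theorem cop_units : (Nat.card Fˣ).Coprime p := by
  have := Fintype.ofFinite F
  obtain ⟨n, -, hn⟩ := FiniteField.card F p
  rw [Nat.card_units, Nat.card_eq_fintype_card, hn]
  exact ((Nat.coprime_self_sub_left (Nat.one_le_pow _ _ hp.1.pos)).2 (Nat.coprime_one_left _)).of_dvd_right
    (dvd_pow_self p n.ne_zero)

/-- diagonal matrices -/
def dg : Fˣ →* SL(2, F) := MonoidHom.mk' (fun a => ⟨!![(a : F), 0; 0, (a : F)⁻¹], by simp [det_fin_two]⟩)
  fun a b => Subtype.ext (by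
    change _ = (!![(a : F), 0; 0, (a : F)⁻¹] * !![(b : F), 0; 0, (b : F)⁻¹] : Matrix _ _ F)
    simp [mul_comm])

@[simp] theorem dg_coe (a : Fˣ) : (dg a : Matrix (Fin 2) (Fin 2) F) = !![(a : F), 0; 0, (a : F)⁻¹] := rfl

theorem dg_xx (a : Fˣ) (r : F) : dg a * xx r = xx (a ^ 2 * r) * dg a := by
  apply sl2_ext <;> simp [sl2_mul_apply]
  field_simp

theorem ww_coe : ((ww : SL(2, F)) : Matrix (Fin 2) (Fin 2) F) = !![0, 1; -1, 0] := by
  simp [ww]

theorem dg_ww (a : Fˣ) : dg a * ww = ww * dg a⁻¹ :=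
  Subtype.ext (by simp [ww_coe, -map_inv])

theorem upper_eq {g : SL(2, F)} (h : g 1 0 = 0) : ∃ r a, g = xx r * dg a := by
  have := sl2_det g
  rw [h, mul_zero, sub_zero] at this
  have h0 := left_ne_zero_of_mul_eq_one this
  refine ⟨g 0 1 * g 0 0, Units.mk0 _ h0, ?_⟩
  apply sl2_ext <;> simp [sl2_mul_apply, h, h0]
  exact eq_inv_of_mul_eq_one_right this

theorem r1_sl2 (h5 : 5 ≤ p) : ∃ (U : Subgroup SL(2, F)) (w d h : SL(2, F)), R1 p ⊤ U w d h := by
  obtain ⟨ζ, hζ⟩ := IsCyclic.exists_generator (α := Fˣ)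
  have h2 : (2 : F) ≠ 0 := by simpa using small_ne (F := F) h5 two_pos (by norm_num)
  have h3 : (3 : F) ≠ 0 := by simpa using small_ne (F := F) h5 three_pos (by norm_num)
  have z : ∀ a, dg a ∈ zpowers (dg ζ) := fun a => by
    obtain ⟨i, rfl⟩ := hζ a
    exact ⟨i, (map_zpow dg ζ i).symm⟩
  refine ⟨upperUnipotentSL2 F, ww, dg ζ, dg (Units.mk0 2 h2), le_top, trivial, trivial, fun u => ⟨1, ?_⟩,
    mem_normalizer_fintype fun u hu => ?_, ⟨_, cop_units (F := F), by rw [← map_pow, pow_card_eq_one', map_one]⟩,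
    fun g _ => ?_, z _, by rw [mul_assoc, dg_ww, inv_mul_cancel_left]; exact z _,
    by rw [← map_pow, show Units.mk0 (2 : F) h2 ^ (p - 1) = 1 from Units.ext (by simpa using two_pow_pred h5), map_one],
    fun u hu e => ?_, fun u hu e => ?_, fun Y hY => (sl2_eq_top (fun r => ?_) fun r => ?_).ge⟩
  · obtain ⟨r, e⟩ := mem_upper.1 u.2
    exact Subtype.ext (by
      change u.1 ^ p ^ 1 = 1
      rw [e, xx_pow, pow_one, CharP.cast_eq_zero, zero_mul, xx_zero])
  · obtain ⟨r, rfl⟩ := mem_upper.1 hu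
    rw [dg_xx, mul_inv_cancel_right]
    exact xx_mem_upper _
  · by_cases h : g 1 0 = 0
    · obtain ⟨r, a, e⟩ := upper_eq h
      exact Or.inl ⟨_, xx_mem_upper r, _, z a, e⟩
    obtain ⟨r, a, e⟩ := upper_eq (g := ww⁻¹ * (xx (-(g 0 0 / g 1 0)) * g)) (by
      have := sl2_mul_apply ww (ww⁻¹ * (xx (-(g 0 0 / g 1 0)) * g)) 0 0
      rw [mul_inv_cancel_left, sl2_mul_apply] at this
      simpa [ww_coe, h] using this.symm)
    refine Or.inr ⟨_, xx_mem_upper (g 0 0 / g 1 0), _, xx_mem_upper r, _, z a, ?_⟩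
    rw [← e, ← xx_inv]
    group
  · obtain ⟨r, rfl⟩ := mem_upper.1 hu
    have := xx_injective (mul_right_cancel ((dg_xx _ r).symm.trans e))
    rw [show r = 0 from (mul_eq_zero.1 (show (3 : F) * r = 0 by
      simp only [Units.val_mk0] at this; linear_combination this)).resolve_left h3, xx_zero]
  · obtain ⟨r, rfl⟩ := mem_upper.1 hu
    obtain ⟨s, hs⟩ := mem_upper.1 e
    rw [← neg_neg r, ← ww_conj_yy, show ww⁻¹ * (ww * yy (-r) * ww⁻¹) * ww = yy (-r) by group] at hs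
    have := congrArg (fun g : SL(2, F) => g 1 0) hs
    rw [show r = 0 by simpa using this, xx_zero]
  · simpa using hY 1 trivial _ (xx_mem_upper r)
  · simpa [ww_conj_xx] using hY ww trivial _ (xx_mem_upper (-r))

theorem r1_su3 (h5 : 5 ≤ p) {q : ℕ} [UF F q] :
    ∃ (U : Subgroup (SU 3 F q)) (w d h : SU 3 F q), R1 p ⊤ U w d h := by
  obtain ⟨ζ, hζ⟩ := IsCyclic.exists_monoid_generator (α := Fˣ)
  have h2 : (2 : F) ≠ 0 := by simpa using small_ne (F := F) h5 two_pos (by norm_num)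
  have h3 : (3 : F) ≠ 0 := by simpa using small_ne (F := F) h5 three_pos (by norm_num)
  obtain ⟨e, e0, ee⟩ := exists_isotropic (F := F) (q := q) (n := 3) (by norm_num)
  obtain ⟨n, f, H⟩ := exists_fr e0 ee
  obtain ⟨t, te, tf⟩ := exists_weyl H
  have ti := weyl_inv H te tf
  obtain ⟨d, hd⟩ : ∃ d : SU 3 F q, Dg e f (ζ : F) d := H.exists_diag ζ.ne_zero
  obtain ⟨h, hh⟩ : ∃ d : SU 3 F q, Dg e f 2 d := H.exists_diag h2
  have z : ∀ {l : F} {k : SU 3 F q}, Dg e f l k → k ∈ zpowers d := fun {l k} hk => by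
    obtain ⟨i, rfl⟩ := exists_pow hζ (eigen_ne_zero e0 hk.1)
    exact Dg.unique H (hd.pow i) hk ▸ npow_mem_zpowers d i
  have one : ∀ {k : SU 3 F q}, Dg e f 1 k → k = 1 := fun hk =>
    H.eq_one (hk.1.trans (one_smul _ _)) (hk.2.trans (by rw [map_one, inv_one, one_smul]))
  have bor : ∀ {g : SU 3 F q} {l : F}, g • e = l • e →
      ∃ u ∈ MulAction.stabilizer (SU 3 F q) e, ∃ s ∈ zpowers d, g = u * s := fun hg => by
    obtain ⟨i, c, a, x, hx, e1⟩ := borel_decomp H hζ hd hg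
    exact ⟨x, H.unip_e hx, _, npow_mem_zpowers d i, e1⟩
  refine ⟨MulAction.stabilizer _ e, t, d, h, le_top, trivial, trivial, fun u => ⟨2, Subtype.ext ?_⟩,
    mem_normalizer_fintype fun u hu => ?_, ⟨_, cop_units (F := F), one ?_⟩, fun g _ => ?_, z hh,
    ti.symm ▸ z (weyl_conj H te tf hh), one (two_pow_pred (F := F) h5 ▸ hh.pow _), fun u hu e1 => ?_,
    fun u hu e1 => H.eq_one hu ?_, fun Y hY => (eq_top_of_siegel_mem fun u w a g u0 uu wu hg => ?_).ge⟩
  · obtain ⟨c, a, hx⟩ := H.isSiegel_of_fix u.2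
    obtain ⟨a', h1, -⟩ := sg_pow H hx p
    rw [CharP.cast_eq_zero, zero_mul] at h1
    obtain ⟨a'', h2, h3⟩ := sg_pow H h1 p
    rw [h3 rfl, mul_zero, CharP.cast_eq_zero, zero_mul, ← pow_mul, ← pow_two] at h2
    exact h2.unique (sg_one H)
  · obtain ⟨c, a, hx⟩ := H.isSiegel_of_fix hu
    exact H.unip_e (sg_conj H hd hx)
  · have := hd.pow (Nat.card Fˣ)
    rwa [← Units.val_pow_eq_pow_val, pow_card_eq_one', Units.val_one] at this
  · rcases bruhat H te tf g with ⟨l, hl⟩ | ⟨c, a, l, x, b, hx, hb, e1⟩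
    · exact Or.inl (bor hl)
    · obtain ⟨u, hu, s, hs, rfl⟩ := bor hb
      exact Or.inr ⟨x, H.unip_e hx, u, hu, s, hs, e1⟩
  · obtain ⟨c, a, hx⟩ := H.isSiegel_of_fix hu
    have h1 := sg_conj H hh hx
    rw [e1, mul_inv_cancel_right, map_ofNat] at h1
    obtain ⟨k1, k2⟩ := sg_inj H hx h1
    obtain rfl : c = 0 := by field_simp at k1; linear_combination -k1
    obtain rfl : a = 0 := (mul_eq_zero.1 (show (3 : F) * a = 0 by linear_combination -k2)).resolve_left h3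
    exact hx.unique (sg_one H)
  · have : t⁻¹ • u • t • e = e := by rw [← mul_smul, ← mul_smul]; exact e1
    rwa [inv_smul_eq_iff, te] at this
  · obtain ⟨k, rfl⟩ := exists_SU_smul_eq (by norm_num) e0 u0 ee uu
    have := hY k trivial (k⁻¹ * g * k) (by
      rw [MulAction.mem_stabilizer_iff, mul_smul, mul_smul, hg.smul_of_orth uu (herm_comm_zero wu), inv_smul_smul])
    rwa [show k * (k⁻¹ * g * k) * k⁻¹ = g by group] at this

end Cfsg.Agent.IsR1
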